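-- helper64: package (M2) of S3009 (for helper33): an irreducible nontrivial `SL₂(F)`-module on
-- which `U⁺` acts quadratically is the product of the fixed points of `U⁺` and `U⁻`.
import Mathlib
import Cfsg.Agent.Lib.Helper33.SL2Nat.Defs

set_option autoImplicit false

namespace Cfsg.Agent.Lib.Helper64.SL2Nat

open Cfsg.Agent.Lib.Helper48.FrakL Cfsg.Agent.Lib.Helper33.FrakL Cfsg.Agent.Lib.Helper33.SL2Nat

universe u v

/-- Package (M2) of S3009. -/
theorem hypOfQuad : HypOfQuad.{u, v} := by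
  intro F _ V _ ρ hirr hnt hq
  have hm1 : (-1 : F) ≠ 0 := neg_ne_zero.mpr one_ne_zero
  -- `U⁻` is quadratic as well
  have h4 : ∀ (t : F) (v : V), ρ (ye t) v * v⁻¹ ∈ fixY ρ := by
    intro t v
    have e1 : ρ (ye t) v = ρ (nn (-1)) (ρ (xe (-t)) (ρ (nn 1) v)) := by
      rw [ye_eq_conj, rho_mul, rho_mul]
    have e2 : v = ρ (nn (-1)) (ρ (nn 1) v) := by
      rw [← rho_mul, nn_neg_one_mul_nn_one, map_one]
      rfl
    have e3 : ρ (ye t) v * v⁻¹ =
        ρ (nn (-1)) (ρ (xe (-t)) (ρ (nn 1) v) * (ρ (nn 1) v)⁻¹) := by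
      rw [map_mul, map_inv, ← e1, ← e2]
    rw [e3]
    exact nn_map_fixX hm1 (hq (-t) (ρ (nn 1) v))
  -- a common fixed point of `U⁺` and `U⁻` is fixed by everything
  have hfixall : ∀ v : V, v ∈ fixX ρ → v ∈ fixY ρ →
      ∀ g : Matrix.SpecialLinearGroup (Fin 2) F, ρ g v = v := by
    intro v hx hy g
    refine sl2_induction (P := fun g => ρ g v = v) ?_ ?_ ?_ g
    · show ρ 1 v = v
      rw [map_one]
      rfl
    · intro t g ih
      have ih' : ρ g v = v := ih
      show ρ (xe t * g) v = v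
      rw [rho_mul, ih']
      exact hx t
    · intro t g ih
      have ih' : ρ g v = v := ih
      show ρ (ye t * g) v = v
      rw [rho_mul, ih']
      exact hy t
  have h1 : ∀ v : V, v ∈ fixX ρ → v ∈ fixY ρ → v = 1 := by
    have hW : ∀ (g : Matrix.SpecialLinearGroup (Fin 2) F), ∀ w ∈ fixX ρ ⊓ fixY ρ,
        ρ g w ∈ fixX ρ ⊓ fixY ρ := by
      intro g w hw
      rw [hfixall w hw.1 hw.2 g]
      exact hw
    rcases hirr _ hW with hbot | htop
    · intro v hx hy
      have hv : v ∈ fixX ρ ⊓ fixY ρ := ⟨hx, hy⟩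
      rw [hbot] at hv
      exact Subgroup.mem_bot.1 hv
    · exfalso
      obtain ⟨g, v, hgv⟩ := hnt
      have hv : v ∈ fixX ρ ⊓ fixY ρ := by
        rw [htop]
        exact Subgroup.mem_top v
      exact hgv (hfixall v hv.1 hv.2 g)
  -- the product of the two fixed point groups is invariant
  have hsup : ∀ (g : Matrix.SpecialLinearGroup (Fin 2) F), ∀ w ∈ fixX ρ ⊔ fixY ρ,
      ρ g w ∈ fixX ρ ⊔ fixY ρ := by
    intro g
    refine sl2_induction (P := fun g => ∀ w ∈ fixX ρ ⊔ fixY ρ, ρ g w ∈ fixX ρ ⊔ fixY ρ)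
      ?_ ?_ ?_ g
    · intro w hw
      show ρ 1 w ∈ fixX ρ ⊔ fixY ρ
      rw [map_one]
      exact hw
    · intro t g ih w hw
      have hw' : ρ g w ∈ fixX ρ ⊔ fixY ρ := ih w hw
      show ρ (xe t * g) w ∈ fixX ρ ⊔ fixY ρ
      rw [rho_mul]
      have e : ρ (xe t) (ρ g w) = (ρ (xe t) (ρ g w) * (ρ g w)⁻¹) * ρ g w :=
        (inv_mul_cancel_right _ _).symm
      rw [e]
      exact (fixX ρ ⊔ fixY ρ).mul_mem (Subgroup.mem_sup_left (hq t _)) hw'
    · intro t g ih w hw
      have hw' : ρ g w ∈ fixX ρ ⊔ fixY ρ := ih w hw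
      show ρ (ye t * g) w ∈ fixX ρ ⊔ fixY ρ
      rw [rho_mul]
      have e : ρ (ye t) (ρ g w) = (ρ (ye t) (ρ g w) * (ρ g w)⁻¹) * ρ g w :=
        (inv_mul_cancel_right _ _).symm
      rw [e]
      exact (fixX ρ ⊔ fixY ρ).mul_mem (Subgroup.mem_sup_right (h4 t _)) hw'
  have h2 : ∀ v : V, ∃ v1 ∈ fixX ρ, ∃ v2 ∈ fixY ρ, v = v1 * v2 := by
    rcases hirr _ hsup with hbot | htop
    · exfalso
      have hX : fixX ρ = ⊥ := by
        rw [← le_bot_iff, ← hbot]
        exact le_sup_left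
      have hxfix : ∀ (t : F) (v : V), ρ (xe t) v = v := by
        intro t v
        have h5 := hq t v
        rw [hX, Subgroup.mem_bot] at h5
        exact mul_inv_eq_one.1 h5
      have hall : ∀ v : V, v = 1 := by
        intro v
        have h5 : v ∈ fixX ρ := fun t => hxfix t v
        rw [hX] at h5
        exact Subgroup.mem_bot.1 h5
      obtain ⟨g, v, hgv⟩ := hnt
      apply hgv
      rw [hall v, map_one]
    · intro v
      have hv : v ∈ fixX ρ ⊔ fixY ρ := by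
        rw [htop]
        exact Subgroup.mem_top v
      obtain ⟨a, ha, b, hb, hab⟩ := Subgroup.mem_sup.1 hv
      exact ⟨a, ha, b, hb, hab.symm⟩
  exact ⟨h1, h2, hq, h4⟩

end Cfsg.Agent.Lib.Helper64.SL2Nat
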